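import Mathlib
import Cfsg.Agent.Dickson.Count

/-!
A Dickson action of a group of order prime to `p` has few points with a large stabiliser.
-/

set_option autoImplicit false

namespace CfsgLib.Dickson

open MulAction

theorem few_points_arith {N n₁ n₂ n₃ a b c : ℕ} (h1 : n₁ * a = N) (h2 : n₂ * b = N) (h3 : n₃ * c = N)
    (ha : 4 ≤ a) (hb : 2 ≤ b) (hc : 2 ≤ c) (hs : n₁ + n₂ + n₃ = N + 2) :
    n₁ ≤ 12 ∧ (6 ≤ a → n₁ ≤ 2) ∧ b < 4 ∧ c < 4 := by
  have k1 : n₁ * 4 ≤ N := h1 ▸ Nat.mul_le_mul_left n₁ ha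
  have k2 : n₂ * 2 ≤ N := h2 ▸ Nat.mul_le_mul_left n₂ hb
  have k3 : n₃ * 2 ≤ N := h3 ▸ Nat.mul_le_mul_left n₃ hc
  have hb4 : b < 4 := by
    by_contra h
    have : n₂ * 4 ≤ N := h2 ▸ Nat.mul_le_mul_left n₂ (by omega)
    omega
  have hc4 : c < 4 := by
    by_contra h
    have : n₃ * 4 ≤ N := h3 ▸ Nat.mul_le_mul_left n₃ (by omega)
    omega
  have h6 : 6 ≤ a → n₁ * 6 ≤ N := fun h => h1 ▸ Nat.mul_le_mul_left n₁ h
  have ha6 : a < 6 → a = 4 ∨ a = 5 := fun h => by omega
  refine ⟨?_, fun h => ?_, hb4, hc4⟩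
  · by_cases h : 6 ≤ a
    · have := h6 h
      interval_cases b <;> interval_cases c <;> omega
    · rcases ha6 (by omega) with rfl | rfl <;> interval_cases b <;> interval_cases c <;> omega
  · have := h6 h
    interval_cases b <;> interval_cases c <;> omega

namespace IsDicksonAction

variable {G X : Type*} [Group G] [Finite G] [MulAction G X] {p : ℕ} [Fact p.Prime]

/-- At most `12` points have stabiliser of order at least `4`, at most `2` of order at least `6`. -/
theorem few_points (hD : IsDicksonAction p G X) (hp : ¬ p ∣ Nat.card G) (s : Finset X) {k : ℕ}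
    (hk : 4 ≤ k) (hs : ∀ x ∈ s, k ≤ Nat.card (stabilizer G x)) :
    s.card ≤ 12 ∧ (6 ≤ k → s.card ≤ 2) := by
  classical
  obtain ⟨R, hR, hcov, -, heq⟩ := hD.orbit_equation
  have hu : Nat.card {g : G // g ≠ 1 ∧ g ^ p = 1} = 0 := by
    have : IsEmpty {g : G // g ≠ 1 ∧ g ^ p = 1} := ⟨fun g => hp (by
      have h := orderOf_eq_prime g.2.2 g.2.1
      exact h ▸ orderOf_dvd_natCard g.1)⟩
    exact Nat.card_of_isEmpty
  rw [hu] at heq
  set a := fun r : X => Nat.card (stabilizer G r) with hadef
  set n := fun r : X => (stabilizer G r).index with hndef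
  have hna : ∀ r, n r * a r = Nat.card G := fun r => Subgroup.index_mul_card _
  have ha2 : ∀ r ∈ R, 2 ≤ a r := fun r hr =>
    (Subgroup.one_lt_card_iff_ne_bot _).2 (hR r hr)
  -- the points lie in the orbits of large stabiliser
  have hbound : s.card ≤ ∑ r ∈ R.filter (fun r => k ≤ a r), n r := by
    have hmem : ∀ x ∈ s, ∃ r ∈ R.filter (fun r => k ≤ a r), x ∈ orbit G r := by
      intro x hx
      obtain ⟨r, hr, hxr⟩ := hcov x fun h => by
        have := hs x hx
        rw [h, Subgroup.card_bot] at this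
        omega
      refine ⟨r, Finset.mem_filter.2 ⟨hr, ?_⟩, hxr⟩
      obtain ⟨g, rfl⟩ := hxr
      have := hs _ hx
      rwa [stabilizer_smul_eq_stabilizer_map_conj,
        Subgroup.card_map_of_injective (MulAut.conj g).injective] at this
    choose f hf hfo using hmem
    calc s.card = ∑ r ∈ R.filter (fun r => k ≤ a r), (s.attach.filter fun x => f x.1 x.2 = r).card := by
          exact Finset.card_attach.symm.trans
            (Finset.card_eq_sum_card_fiberwise (f := fun x : {x // x ∈ s} => f x.1 x.2)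
              fun x _ => hf x.1 x.2)
      _ ≤ _ := Finset.sum_le_sum fun r _ => by
          have hfin : (orbit G r).Finite := Set.finite_range _
          rw [← Finset.card_map (Function.Embedding.subtype _), hndef]
          simp only
          rw [index_stabilizer, Set.ncard_eq_toFinset_card _ hfin]
          refine Finset.card_le_card fun x hx => ?_
          simp only [Finset.mem_map, Finset.mem_filter, Finset.mem_attach, true_and] at hx
          obtain ⟨⟨y, hy⟩, rfl, rfl⟩ := hx
          exact hfin.mem_toFinset.2 (hfo y hy)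
  have hn2 : ∀ r ∈ R, n r * 2 ≤ Nat.card G := fun r hr =>
    hna r ▸ Nat.mul_le_mul_left _ (ha2 r hr)
  have hsum : (∑ r ∈ R, n r) * 2 ≤ R.card * Nat.card G := by
    rw [Finset.sum_mul]
    exact (Finset.sum_le_card_nsmul _ _ _ hn2).trans (le_of_eq (smul_eq_mul _ _))
  have hn0 : ∀ r, 0 < n r := fun r => Nat.pos_of_ne_zero Subgroup.index_ne_zero_of_finite
  have hN : 0 < Nat.card G := Nat.card_pos
  have h3 : R.card ≤ 3 := by
    by_contra h
    have : 4 * Nat.card G ≤ R.card * Nat.card G := Nat.mul_le_mul_right _ (by omega)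
    change R.card * Nat.card G + 0 + 2 = ∑ r ∈ R, n r + 2 * Nat.card G at heq
    omega
  change R.card * Nat.card G + 0 + 2 = ∑ r ∈ R, n r + 2 * Nat.card G at heq
  interval_cases hc : R.card
  · rw [Finset.card_eq_zero] at hc
    subst hc
    rw [Finset.filter_empty, Finset.sum_empty] at hbound
    constructor <;> omega
  · obtain ⟨r, rfl⟩ := Finset.card_eq_one.1 hc
    have := hn2 r (Finset.mem_singleton_self r)
    have := hn0 r
    rw [Finset.sum_singleton] at heq
    omega
  · have hsub : ∑ r ∈ R.filter (fun r => k ≤ a r), n r ≤ ∑ r ∈ R, n r :=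
      Finset.sum_le_sum_of_subset (Finset.filter_subset _ _)
    obtain ⟨r₁, r₂, hne, rfl⟩ := Finset.card_eq_two.1 hc
    have := hn0 r₁
    have := hn0 r₂
    rw [Finset.sum_pair hne] at heq
    rw [Finset.sum_pair hne] at hsub
    constructor <;> omega
  · obtain ⟨r₁, r₂, r₃, h12, h13, h23, rfl⟩ := Finset.card_eq_three.1 hc
    rw [Finset.sum_insert (by simp [h12, h13]), Finset.sum_pair h23] at heq
    rw [Finset.sum_filter, Finset.sum_insert (by simp [h12, h13]), Finset.sum_pair h23] at hbound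
    have hb : ∀ r, k ≤ a r → 4 ≤ a r := fun r h => hk.trans h
    have m1 := ha2 r₁ (by simp)
    have m2 := ha2 r₂ (by simp)
    have m3 := ha2 r₃ (by simp)
    by_cases e1 : k ≤ a r₁
    · obtain ⟨l1, l2, l3, l4⟩ := few_points_arith (hna r₁) (hna r₂) (hna r₃) (hb _ e1) m2 m3 (by omega)
      rw [if_pos e1, if_neg (by omega), if_neg (by omega)] at hbound
      exact ⟨by omega, fun h => by have := l2 (h.trans e1); omega⟩
    by_cases e2 : k ≤ a r₂
    · obtain ⟨l1, l2, l3, l4⟩ := few_points_arith (hna r₂) (hna r₁) (hna r₃) (hb _ e2) m1 m3 (by omega)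
      rw [if_neg e1, if_pos e2, if_neg (by omega)] at hbound
      exact ⟨by omega, fun h => by have := l2 (h.trans e2); omega⟩
    by_cases e3 : k ≤ a r₃
    · obtain ⟨l1, l2, l3, l4⟩ := few_points_arith (hna r₃) (hna r₁) (hna r₂) (hb _ e3) m1 m2 (by omega)
      rw [if_neg e1, if_neg e2, if_pos e3] at hbound
      exact ⟨by omega, fun h => by have := l2 (h.trans e3); omega⟩
    rw [if_neg e1, if_neg e2, if_neg e3] at hbound
    omega

end IsDicksonAction

end CfsgLib.Dickson
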